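import Cfsg.Agent.McLInv.Checks
import Cfsg.Agent.Leech.McLSimple
import Cfsg.Agent.Mathieu.FixList

/-!
The centraliser of the sign change at an octad in the joint stabiliser of two vectors, acting on
35 vectors: the kernel is the sign change.
-/

set_option autoImplicit false
set_option linter.style.haveILetI false

namespace CfsgLib.McLInv

open Cfsg CfsgLib.Leech
open scoped Pointwise

theorem toVec_idx {l : List ℤ} (h : ∀ n : Fin 24, (n : ℕ) ∉ outIdx → l.getD n 0 = 0) {i : GolayPt}
    (hi : baseOctad i ≠ 0) : toVec l i = 0 :=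
  h ⟨ptIdx i, (idxPt_ptIdx i).2⟩ fun e => hi ((outIdx_ok.2.1 i).2 e)

theorem sum_outside {M : Type*} [AddCommMonoid M] (f : GolayPt → M)
    (hf : ∀ i, baseOctad i ≠ 0 → f i = 0) : ∑ i, f i = (outIdx.map fun n => f (idxPt n)).sum := by
  classical
  rw [← List.sum_toFinset _ outIdx_ok.1,
    ← Finset.sum_subset (Finset.subset_univ (Finset.univ.filter fun i => baseOctad i = 0))
      (fun i _ hi => hf i (by simpa using hi))]
  refine Finset.sum_bij' (fun i _ => ptIdx i) (fun j _ => idxPt j) (fun i hi => ?_) (fun j hj => ?_)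
    (fun i _ => (idxPt_ptIdx i).1) (fun j hj => ?_) fun i _ => by rw [(idxPt_ptIdx i).1]
  · exact List.mem_toFinset.2 ((outIdx_ok.2.1 i).1 (Finset.mem_filter.1 hi).2)
  · have h : ptIdx (idxPt j) = j :=
      (tet_ok.2.2.2 ⟨j, outIdx_ok.2.2 j (List.mem_toFinset.1 hj)⟩).2.1
    refine Finset.mem_filter.2 ⟨Finset.mem_univ _, (outIdx_ok.2.1 _).2 ?_⟩
    rw [h]; exact List.mem_toFinset.1 hj
  · exact (tet_ok.2.2.2 ⟨j, outIdx_ok.2.2 j (List.mem_toFinset.1 hj)⟩).2.1

theorem toVec_out (l : List ℤ) {n : ℕ} (hn : n ∈ outIdx) : toVec l (idxPt n) = l.getD n 0 := by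
  rw [toVec, (tet_ok.2.2.2 ⟨n, outIdx_ok.2.2 n hn⟩).2.1]

theorem dot_toVec {a b : List ℤ} (h : ∀ n : Fin 24, (n : ℕ) ∉ outIdx → a.getD n 0 = 0) :
    dotInt (toVec a) (toVec b) = outDot a b := by
  rw [dotInt, sum_outside _ fun i hi => by rw [toVec_idx h hi, zero_mul], outDot]
  exact congrArg List.sum (List.map_congr_left fun n hn => by rw [toVec_out a hn, toVec_out b hn])

/-- The first vector. -/
def vV : leechLattice := ⟨toVec vList, mem_leech_of_check lists_mem.2.1⟩

/-- The second vector. -/
def wV : leechLattice := ⟨toVec wList, mem_leech_of_check lists_mem.2.2⟩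

/-- The 35 vectors. -/
def xV (j : Fin 35) : leechLattice := ⟨toVec (xList j), mem_leech_of_check (lists_mem.1 j)⟩

theorem supp_v : ∀ n : Fin 24, (n : ℕ) ∉ outIdx → vList.getD n 0 = 0 := fun n hn =>
  (lists_shape.2.2.2.2.1 n hn).1

theorem supp_w : ∀ n : Fin 24, (n : ℕ) ∉ outIdx → wList.getD n 0 = 0 := fun n hn =>
  (lists_shape.2.2.2.2.1 n hn).2

theorem supp_x (j : Fin 35) : ∀ n : Fin 24, (n : ℕ) ∉ outIdx → (xList j).getD n 0 = 0 :=
  (lists_shape.2.2.2.1 j).2.1

theorem eps_fix {x : leechLattice} :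
    epsOct • x = x ↔ ∀ i, baseOctad i ≠ 0 → (x : GolayPt → ℤ) i = 0 := by
  constructor
  · intro h i hi
    have := congrFun (congrArg Subtype.val h) i
    rw [epsOct, signs_apply, if_neg hi] at this
    omega
  · intro h
    refine Subtype.ext (funext fun i => ?_)
    rw [epsOct, signs_apply]
    split_ifs with hi
    · rfl
    · rw [h i hi, neg_zero]

theorem pair_facts : nrm vV = 32 ∧ nrm wV = 32 ∧ ip vV wV = -8 := by
  refine ⟨?_, ?_, ?_⟩
  · rw [← ip_self]; exact (dot_toVec supp_v).trans lists_dot.1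
  · rw [← ip_self]; exact (dot_toVec supp_w).trans lists_dot.2.1
  · exact (dot_toVec supp_v).trans lists_dot.2.2.1

theorem eps_v : epsOct • vV = vV := eps_fix.2 fun _ hi => toVec_idx supp_v hi

theorem eps_w : epsOct • wV = wV := eps_fix.2 fun _ hi => toVec_idx supp_w hi

/-- The vectors fixed by the sign change at the given products with the pair. -/
def IsX (x : leechLattice) : Prop :=
  nrm x = 32 ∧ epsOct • x = x ∧ ip vV x = 16 ∧ ip wV x = -16

theorem isX_xV (j : Fin 35) : IsX (xV j) := by
  obtain ⟨h1, h2, h3⟩ := lists_dot.2.2.2 j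
  exact ⟨by rw [← ip_self]; exact (dot_toVec (supp_x j)).trans h1,
    eps_fix.2 fun _ hi => toVec_idx (supp_x j) hi, (dot_toVec supp_v).trans h2,
    (dot_toVec supp_w).trans h3⟩

theorem xV_injective : Function.Injective xV := fun i j h => by
  refine xList_injective i j (List.ext_getElem ?_ fun n h1 h2 => ?_)
  · rw [(lists_shape.2.2.2.1 i).1, (lists_shape.2.2.2.1 j).1]
  · have hn : n < 24 := by rwa [(lists_shape.2.2.2.1 i).1] at h1
    have := congrFun (congrArg Subtype.val h) (idxPt n)
    simp only [xV, toVec, (tet_ok.2.2.2 ⟨n, hn⟩).2.1] at this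
    rwa [List.getD_eq_getElem _ _ h1, List.getD_eq_getElem _ _ h2] at this

theorem isX_complete {x : leechLattice} (hx : IsX x) : ∃ j, xV j = x := by
  classical
  obtain ⟨hn, he, hv, hw⟩ := hx
  have h0 := eps_fix.1 he
  rcases leech_cases x.2 with ⟨a, ha, hac, has⟩ | ⟨a, ha, -, -⟩
  swap
  · exfalso
    obtain ⟨i, hi⟩ : ∃ i, baseOctad i ≠ 0 := ⟨octPts 0, octPts_ok.1 0⟩
    have := h0 i hi
    rw [ha i] at this
    omega
  have ha0 : ∀ i, baseOctad i ≠ 0 → a i = 0 := fun i hi => by
    have := h0 i hi; rw [ha i] at this; omega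
  obtain ⟨b, hb⟩ := outCombo_surjective hac fun i hi => by rw [red_apply, ha0 i hi, Int.cast_zero]
  have hsq : (outIdx.map fun n => a (idxPt n) * a (idxPt n)).sum = 8 := by
    rw [← sum_outside (fun i => a i * a i) fun i hi => by rw [ha0 i hi, zero_mul]]
    have h1 : sqNorm (x : GolayPt → ℤ) = 4 * ∑ i, a i * a i := by
      rw [sqNorm, Finset.mul_sum]
      exact Finset.sum_congr rfl fun i _ => by rw [ha i]; ring
    have h2 : sqNorm (x : GolayPt → ℤ) = 32 := hn
    omega
  have hsum : (0 + (outIdx.map fun n => a (idxPt n)).sum) % 4 = 0 := by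
    rw [← sum_outside a ha0, zero_add]
    omega
  have hdot : ∀ (l : List ℤ) (c : ℤ), dotInt (toVec l) (x : GolayPt → ℤ) = c →
      (outIdx.map fun n => 2 * a (idxPt n) * l.getD n 0).sum = c := fun l c h => by
    rw [← h, dotInt, sum_outside _ fun i hi => by rw [h0 i hi, mul_zero]]
    exact congrArg List.sum (List.map_congr_left fun n hn => by rw [toVec_out l hn, ha]; ring)
  have hsound := srch_sound (outData b) 8 0 0 0 [] (outIdx.map fun n => a (idxPt n)) le_rfl
    (srch_all b) (by simp [outData]) (fun p hp => ?_) (by rw [List.map_map]; exact hsq) hsum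
    (by
      rw [outData, List.zipWith_map, List.zipWith_self, zero_add]
      exact hdot vList 16 hv)
    (by
      rw [outData, List.zipWith_map, List.zipWith_self, zero_add]
      exact hdot wList (-16) hw)
  swap
  · rw [outData, List.zip_map', List.mem_map] at hp
    obtain ⟨n, -, rfl⟩ := hp
    simp only [decide_eq_true_eq]
    rw [show outCombo b (idxPt n) = red a (idxPt n) from congrFun hb _]
    exact ne_zero_of_mem_red
  rw [List.reverse_nil, List.nil_append, xOut, List.mem_map] at hsound
  obtain ⟨l, hl, hla⟩ := hsound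
  rw [lists_shape.2.2.2.2.2, List.mem_map] at hl
  obtain ⟨j, -, rfl⟩ := hl
  refine ⟨j, Subtype.ext (funext fun i => ?_)⟩
  show toVec (xList j) i = _
  by_cases hi : baseOctad i = 0
  · have hm := (outIdx_ok.2.1 i).1 hi
    have h := List.map_inj_left.1 hla _ hm
    rw [(idxPt_ptIdx i).1] at h
    have h2 := ((lists_shape.2.2.2.1 j).2.2 ⟨ptIdx i, (idxPt_ptIdx i).2⟩).1
    rw [ha i, toVec, ← h]
    exact (Int.mul_ediv_cancel' h2).symm
  · rw [toVec_idx (supp_x j) hi, h0 i hi]

/-- The centraliser of the sign change in the joint stabiliser. -/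
noncomputable abbrev mclCent : Subgroup Co0 := pairStab vV wV ⊓ octCent

theorem mclCent_spec (g : mclCent) :
    (g : Co0) • vV = vV ∧ (g : Co0) • wV = wV ∧ (g : Co0) * epsOct = epsOct * g :=
  ⟨g.2.1.1, g.2.1.2, Subgroup.mem_centralizer_singleton_iff.1 g.2.2⟩

theorem isX_smul (g : mclCent) {x : leechLattice} (hx : IsX x) : IsX ((g : Co0) • x) := by
  obtain ⟨hv, hw, hc⟩ := mclCent_spec g
  obtain ⟨h1, h2, h3, h4⟩ := hx
  refine ⟨(nrm_smul _ _).trans h1, ?_, ?_, ?_⟩
  · rw [← mul_smul, ← hc, mul_smul, h2]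
  · have := ip_smul (g : Co0) vV x
    rw [hv] at this
    exact this.trans h3
  · have := ip_smul (g : Co0) wV x
    rw [hw] at this
    exact this.trans h4

theorem exists_image (g : mclCent) (j : Fin 35) : ∃ k, xV k = (g : Co0) • xV j :=
  isX_complete (isX_smul g (isX_xV j))

/-- The index of the image of a vector. -/
noncomputable def xImage (g : mclCent) (j : Fin 35) : Fin 35 := (exists_image g j).choose

theorem xImage_spec (g : mclCent) (j : Fin 35) : xV (xImage g j) = (g : Co0) • xV j :=
  (exists_image g j).choose_spec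

theorem xImage_mul (g h : mclCent) (j : Fin 35) : xImage (g * h) j = xImage g (xImage h j) :=
  xV_injective (by rw [xImage_spec, xImage_spec, xImage_spec, Subgroup.coe_mul, mul_smul])

theorem xImage_one (j : Fin 35) : xImage 1 j = j :=
  xV_injective (by rw [xImage_spec, Subgroup.coe_one, one_smul])

/-- The action on the 35 vectors. -/
noncomputable def xHom : mclCent →* Equiv.Perm (Fin 35) where
  toFun g :=
    { toFun := xImage g
      invFun := xImage g⁻¹
      left_inv := fun j => by rw [← xImage_mul, inv_mul_cancel, xImage_one]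
      right_inv := fun j => by rw [← xImage_mul, mul_inv_cancel, xImage_one] }
  map_one' := Equiv.ext fun j => xImage_one j
  map_mul' g h := Equiv.ext fun j => xImage_mul g h j

/-- The sign change in the centraliser. -/
noncomputable def epsC : mclCent :=
  ⟨epsOct, ⟨eps_v, eps_w⟩, Subgroup.mem_centralizer_singleton_iff.2 rfl⟩

theorem xHom_eps : xHom epsC = 1 :=
  Equiv.ext fun j => xV_injective ((xImage_spec epsC j).trans (isX_xV j).2.1)

theorem combo_fixed {g : Co0} : ∀ (cs : List ℤ) (L : List leechLattice),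
    (∀ u ∈ L, g • u = u) →
    g • (List.zipWith (fun c u => c • u) cs L).sum = (List.zipWith (fun c u => c • u) cs L).sum
  | [], _, _ => co0_map_zero g
  | _ :: _, [], _ => co0_map_zero g
  | c :: cs, u :: L, h => by
    rw [List.zipWith_cons_cons, List.sum_cons, co0_map_add, co0_map_zsmul, h u List.mem_cons_self,
      combo_fixed cs L fun x hx => h x (List.mem_cons_of_mem _ hx)]

theorem combo_val (F : List ℤ → leechLattice) (i : GolayPt) :
    ∀ (cs : List ℤ) (ls : List (List ℤ)), (∀ l ∈ ls, (F l : GolayPt → ℤ) i = toVec l i) →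
    (((List.zipWith (fun c u => c • u) cs (ls.map F)).sum : leechLattice) : GolayPt → ℤ) i =
      comboAt cs ls (ptIdx i)
  | [], _, _ => by simp [comboAt]
  | _ :: _, [], _ => by simp [comboAt]
  | c :: cs, l :: ls, h => by
    rw [List.map_cons, List.zipWith_cons_cons, List.sum_cons, AddSubgroup.coe_add, Pi.add_apply,
      combo_val F i cs ls fun x hx => h x (List.mem_cons_of_mem _ hx), AddSubgroup.coe_zsmul,
      Pi.smul_apply, smul_eq_mul, h l List.mem_cons_self]
    simp [comboAt, toVec]

theorem axis_fixed {g : mclCent} (hg : xHom g = 1) {p : GolayPt} (hp : baseOctad p = 0) :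
    (g : Co0) • axisVec p = axisVec p := by
  classical
  obtain ⟨hv, hw, -⟩ := mclCent_spec g
  obtain ⟨k, hk, hkp⟩ := List.getElem_of_mem ((outIdx_ok.2.1 p).1 hp)
  have hk' : k < 16 := lt_of_lt_of_eq hk (by decide +kernel)
  obtain ⟨hm, hax⟩ := axis_ok ⟨k, hk'⟩
  set mcs := axisCoef.getD k (0, []) with hmcs
  -- a vector for each of the lists used
  let F : List ℤ → leechLattice := fun l =>
    if h : toVec l ∈ leechLattice then ⟨toVec l, h⟩ else 0
  have hFx : ∀ j, F (xList j) = xV j := fun j => dif_pos (xV j).2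
  have hFv : F vList = vV := dif_pos vV.2
  have hFw : F wList = wV := dif_pos wV.2
  set ls := xLists ++ [vList, wList] with hls
  have hcases : ∀ l ∈ ls, (∃ j, l = xList j) ∨ l = vList ∨ l = wList := by
    intro l hl
    rw [hls, lists_shape.2.2.2.2.2] at hl
    simpa [eq_comm] using hl
  have hfix : ∀ u ∈ ls.map F, (g : Co0) • u = u := by
    intro u hu
    obtain ⟨l, hl, rfl⟩ := List.mem_map.1 hu
    rcases hcases l hl with ⟨j, rfl⟩ | rfl | rfl
    · rw [hFx, ← xImage_spec]
      exact congrArg xV (congrArg (fun σ : Equiv.Perm (Fin 35) => σ j) hg)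
    · rwa [hFv]
    · rwa [hFw]
  have hy : (List.zipWith (fun c u => c • u) mcs.2 (ls.map F)).sum = mcs.1 • axisVec p := by
    refine Subtype.ext (funext fun i => ?_)
    rw [combo_val F i _ _ fun l hl => ?_]
    · rw [hls, hax ⟨ptIdx i, (idxPt_ptIdx i).2⟩, List.getD_eq_getElem _ _ hk, hkp]
      simp only [AddSubgroup.coe_zsmul, Pi.smul_apply, smul_eq_mul, axisVec, single]
      by_cases h : i = p
      · subst h; rw [if_pos rfl, if_pos rfl, mul_comm]
      · rw [if_neg fun e => h (by rw [← (idxPt_ptIdx i).1, e, (idxPt_ptIdx p).1]), if_neg h,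
          mul_zero]
    · rcases hcases l hl with ⟨j, rfl⟩ | rfl | rfl
      · rw [hFx]; rfl
      · rw [hFv]; rfl
      · rw [hFw]; rfl
  have h1 := combo_fixed mcs.2 _ hfix
  rw [hy, co0_map_zsmul] at h1
  exact smul_right_injective leechLattice hm h1

theorem xHom_ker {g : mclCent} (hg : xHom g = 1) : g = 1 ∨ g = epsC := by
  classical
  have hp0 : baseOctad outPt = 0 := formHalf_ok.2.2.2.1
  have hfr : (g : Co0) ∈ frameStab := by
    rw [mem_frameStab]
    exact ((cg_axis outPt).smul (g : Co0)).symm.trans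
      (by rw [axis_fixed hg hp0]; exact cg_axis outPt)
  obtain ⟨⟨c, τ⟩, hgm⟩ := frame_decomp hfr
  have key : ∀ i, baseOctad i = 0 → τ.1 i = i ∧ c.1 i = 0 := by
    intro i hi
    have h := axis_fixed hg hi
    rw [hgm, monomial_axis] at h
    have h1 := congrFun (congrArg Subtype.val h) i
    by_cases hτ : τ.1 i = i
    · refine ⟨hτ, ?_⟩
      simp only [hτ] at h1
      by_contra hc
      rw [if_neg hc] at h1
      simp [axisVec, single] at h1
    · exfalso
      split_ifs at h1 <;> simp [axisVec, single, Ne.symm hτ] at h1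
  have hτ : τ = 1 := by
    refine Subtype.ext (CfsgLib.Mathieu.eq_one_of_nine_fixed τ.2 ?_)
    refine le_trans ?_ (Finset.card_le_card (s := Finset.univ.filter fun i => baseOctad i = 0)
      fun i hi => CfsgLib.Mathieu.mem_fixedPts.2 (key i (Finset.mem_filter.1 hi).2).1)
    decide +kernel
  have hc : c.1 = 0 ∨ c.1 = baseOctad := by
    refine subword_cases c.2 baseOctad_mem
      (le_trans (card_twoWord 0 1 (by decide)).le (by norm_num)) (funext fun i => ?_)
    rw [Pi.mul_apply]
    rcases eq_or_ne (baseOctad i) 0 with h | h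
    · rw [h, mul_zero, (key i h).2]
    · have h1 : baseOctad i = 1 := by revert h; generalize baseOctad i = z; revert z; decide
      rw [h1, mul_one]
  rw [hτ, monomial, map_one, mul_one] at hgm
  rcases hc with e | e
  · left
    refine Subtype.ext ?_
    rw [hgm, signs_congr _ (Submodule.zero_mem _) e, signs_zero]
    rfl
  · right
    refine Subtype.ext ?_
    rw [hgm, signs_congr _ baseOctad_mem e]
    rfl

end CfsgLib.McLInv
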