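import Cfsg.Agent.McLInv.Cert

/-!
Checks on the 35 fixed vectors: membership, completeness, spanning and a base for their Gram matrix.
-/

set_option autoImplicit false
set_option maxRecDepth 100000

namespace CfsgLib.McLInv

open Cfsg CfsgLib.Leech

theorem outIdx_ok : outIdx.Nodup ∧ (∀ i : GolayPt, baseOctad i = 0 ↔ ptIdx i ∈ outIdx) ∧
    (∀ n ∈ outIdx, n < 24) := by
  decide +kernel

theorem lists_mem : (∀ j : Fin 35, CheckLeech (toVec (xList j))) ∧ CheckLeech (toVec vList) ∧
    CheckLeech (toVec wList) := by
  decide +kernel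

theorem lists_shape : xLists.length = 35 ∧ vList.length = 24 ∧ wList.length = 24 ∧
    (∀ j : Fin 35, (xList j).length = 24 ∧ (∀ n : Fin 24, (n : ℕ) ∉ outIdx → (xList j).getD n 0 = 0) ∧
      (∀ n : Fin 24, (2 : ℤ) ∣ (xList j).getD n 0 ∧ ((xList j).getD n 0).natAbs ≤ 8)) ∧
    (∀ n : Fin 24, (n : ℕ) ∉ outIdx → vList.getD n 0 = 0 ∧ wList.getD n 0 = 0) ∧
    xLists = (List.finRange 35).map xList := by
  decide +kernel

/-- A product of two lists over the points outside the octad. -/
def outDot (a b : List ℤ) : ℤ := (outIdx.map fun n => a.getD n 0 * b.getD n 0).sum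

theorem lists_dot : outDot vList vList = 32 ∧ outDot wList wList = 32 ∧ outDot vList wList = -8 ∧
    (∀ j : Fin 35, outDot (xList j) (xList j) = 32 ∧ outDot vList (xList j) = 16 ∧
      outDot wList (xList j) = -16) := by
  decide +kernel

theorem xList_injective : ∀ i j : Fin 35, xList i = xList j → i = j := by decide +kernel

/-- Halves of the vectors outside the octad. -/
def xOut : List (List ℤ) := xLists.map fun x => outIdx.map fun n => x.getD n 0 / 2

/-- A search over halves with given parities, square sum and products. -/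
def srch : List (Bool × ℤ × ℤ) → ℤ → ℤ → ℤ → ℤ → List ℤ → Bool
  | [], bud, sm, dv, dw, acc =>
    !(bud == 0 && sm % 4 == 0 && dv == 16 && dw == -16) || xOut.contains acc.reverse
  | (p, cv, cw) :: r, bud, sm, dv, dw, acc =>
    (if p then [1, -1] else [0, 2, -2]).all fun a =>
      decide (bud < a * a) || srch r (bud - a * a) (sm + a) (dv + 2 * a * cv) (dw + 2 * a * cw) (a :: acc)

theorem srch_sound : ∀ (r : List (Bool × ℤ × ℤ)) (bud sm dv dw : ℤ) (acc as : List ℤ),
    bud ≤ 8 → srch r bud sm dv dw acc = true → as.length = r.length →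
    (∀ p ∈ r.zip as, (p.1.1 = true ↔ p.2 % 2 = 1)) → (as.map fun a => a * a).sum = bud → (sm + as.sum) % 4 = 0 →
    dv + (List.zipWith (fun d a => 2 * a * d.2.1) r as).sum = 16 →
    dw + (List.zipWith (fun d a => 2 * a * d.2.2) r as).sum = -16 →
    acc.reverse ++ as ∈ xOut := by
  intro r
  induction r with
  | nil =>
    intro bud sm dv dw acc as _ h hl _ hs hm hv hw
    obtain rfl := List.length_eq_zero_iff.1 hl
    simp only [List.map_nil, List.sum_nil, List.zipWith_nil_left, add_zero] at hs hm hv hw
    simpa [srch, ← hs, hm, hv, hw] using h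
  | cons d r ih =>
    obtain ⟨p, cv, cw⟩ := d
    intro bud sm dv dw acc as hb h hl hpar hs hm hv hw
    obtain _ | ⟨a, as⟩ := as
    · simp at hl
    simp only [List.map_cons, List.sum_cons] at hs hm
    simp only [List.zipWith_cons_cons, List.sum_cons] at hv hw
    have h0 : 0 ≤ (as.map fun a => a * a).sum := List.sum_nonneg fun x hx => by
      obtain ⟨b, -, rfl⟩ := List.mem_map.1 hx
      exact mul_self_nonneg b
    have hp := hpar ((p, cv, cw), a) (by simp)
    have ha : a ∈ (if p then [1, -1] else [0, 2, -2] : List ℤ) := by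
      have h1 : -2 ≤ a ∧ a ≤ 2 := ⟨by nlinarith, by nlinarith⟩
      obtain ⟨h1, h2⟩ := h1
      cases p
      · have hp' : a % 2 ≠ 1 := fun e => Bool.false_ne_true (hp.2 e)
        simp only [Bool.false_eq_true, if_false, List.mem_cons, List.not_mem_nil, or_false]
        omega
      · have hp' : a % 2 = 1 := hp.1 rfl
        simp only [if_true, List.mem_cons, List.not_mem_nil, or_false]
        omega
    rw [srch, List.all_eq_true] at h
    have h' := h a ha
    simp only [Bool.or_eq_true, decide_eq_true_eq] at h'
    rcases h' with h' | h'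
    · omega
    have := ih (bud - a * a) _ _ _ (a :: acc) as (by nlinarith) h' (by simpa using hl)
      (fun q hq => hpar q (by simp [hq])) (by omega) (by omega) (by omega) (by omega)
    simpa [List.reverse_cons, List.append_assoc] using this

/-- The search data of a parity pattern. -/
def outData (b : Fin 5 → ZMod 2) : List (Bool × ℤ × ℤ) :=
  outIdx.map fun n => (decide (outCombo b (idxPt n) ≠ 0), vList.getD n 0, wList.getD n 0)

theorem srch_all : ∀ b : Fin 5 → ZMod 2, srch (outData b) 8 0 0 0 [] = true := by
  decide +kernel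

/-- A combination of lists at a position. -/
def comboAt (cs : List ℤ) (ls : List (List ℤ)) (n : ℕ) : ℤ :=
  (List.zipWith (fun c l => c * l.getD n 0) cs ls).sum

theorem axis_ok : ∀ k : Fin 16, (axisCoef.getD k (0, [])).1 ≠ 0 ∧ ∀ n : Fin 24,
    comboAt (axisCoef.getD k (0, [])).2 (xLists ++ [vList, wList]) n =
      if (n : ℕ) = outIdx.getD k 0 then 8 * (axisCoef.getD k (0, [])).1 else 0 := by
  decide +kernel

/-- An entry of the Gram matrix. -/
def gram (i j : Fin 35) : ℤ := outDot (xList i) (xList j)

/-- The points that look like `b` to the given points. -/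
def gramCand (pre : List (Fin 35)) (b : Fin 35) : List (Fin 35) :=
  (List.finRange 35).filter fun c => pre.all fun p => gram c p == gram b p

/-- The product of the numbers of candidates along a base. -/
def gramProd : List (Fin 35) → List (Fin 35) → ℕ
  | _, [] => 1
  | pre, b :: bs => (gramCand pre b).length * gramProd (pre ++ [b]) bs

theorem gram_ok : gramProd [] gramBase = 40320 ∧
    ∀ b : Fin 35, gramCand gramBase b = [b] := by
  decide +kernel

end CfsgLib.McLInv
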