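import Cfsg.Agent.Mathieu.FusionMcL

/-!
`M22` has one class of involutions, and so has a group of order 898128000 that contains it, since
the two share a Sylow `2`-subgroup.
-/

set_option autoImplicit false
set_option maxRecDepth 100000

namespace CfsgLib.McLInv

open Cfsg CfsgLib.Mathieu CfsgLib.Mathieu.Code CfsgLib.Mathieu.Code.McLFusion

/-- Conjugating elements: the series and the fusing elements. -/
def conjGens : List (ℕ × ℕ) := certM22.pc ++ certM22.conjs

/-- Which known involution is conjugated by which element. -/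
def invSteps : List (ℕ × ℕ) :=
  [(0, 7), (0, 9), (1, 0), (1, 1), (1, 2), (1, 3), (2, 0), (2, 1), (2, 3), (2, 7), (3, 1), (3, 2), (3, 4), (3, 7), (5, 9), (6, 8), (7, 1), (7, 3), (8, 0), (8, 3), (10, 1), (10, 3), (11, 9), (14, 0), (15, 0), (16, 1), (16, 2), (16, 3), (21, 3), (23, 1), (26, 2), (26, 3), (27, 1), (27, 3)]

/-- One conjugation. -/
def invStep (L : List ℕ) (p : ℕ × ℕ) : List ℕ :=
  L ++ [cmpC (cmpC (conjGens.getD p.2 (idC, idC)).1 (L.getD p.1 certM22.z))
    (conjGens.getD p.2 (idC, idC)).2]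

/-- The involutions reached from the central one. -/
def invList : List ℕ := invSteps.foldl invStep [certM22.z]

theorem invList_ok : (allK.all fun x =>
    x == idC || !(cmpC x x == idC) || invList.contains x) = true := by decide +kernel

theorem z_mem_allK : allK.contains certM22.z = true := by decide +kernel

local notation "K" => grpOf certM22.pc

theorem conjGens_rep : ∀ p ∈ conjGens,
    ∃ g ∈ Cfsg.Spor.M22, code g = p.1 ∧ code g⁻¹ = p.2 := fun p hp =>
  (List.mem_append.1 hp).elim (certM22_pc p) (certM22_conjs p)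

theorem invList_conj (z : Cfsg.Spor.M22) (hz : code z.1 = certM22.z) :
    ∀ a ∈ invList, ∃ g : Cfsg.Spor.M22, code g.1 = a ∧ IsConj z g := by
  suffices h : ∀ (l : List (ℕ × ℕ)) (L : List ℕ),
      (∀ a ∈ L, ∃ g : Cfsg.Spor.M22, code g.1 = a ∧ IsConj z g) →
      ∀ a ∈ l.foldl invStep L, ∃ g : Cfsg.Spor.M22, code g.1 = a ∧ IsConj z g from
    h invSteps _ fun a ha => ⟨z, by rw [List.mem_singleton.1 ha, hz], IsConj.refl z⟩
  intro l
  induction l with
  | nil => exact fun L hL => hL
  | cons p l ih =>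
    intro L hL
    refine ih _ fun a ha => ?_
    rcases List.mem_append.1 ha with ha | ha
    · exact hL a ha
    rw [List.mem_singleton] at ha
    obtain ⟨g, hg, hzg⟩ : ∃ g : Cfsg.Spor.M22, code g.1 = L.getD p.1 certM22.z ∧ IsConj z g := by
      rw [List.getD_eq_getElem?_getD]
      cases e : L[p.1]? with
      | none => exact ⟨z, hz, IsConj.refl z⟩
      | some b => exact hL b (List.mem_of_getElem? e)
    obtain ⟨c, hc, hc1, hc2⟩ : ∃ c ∈ Cfsg.Spor.M22,
        code c = (conjGens.getD p.2 (idC, idC)).1 ∧ code c⁻¹ = (conjGens.getD p.2 (idC, idC)).2 := by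
      rw [List.getD_eq_getElem?_getD]
      cases e : conjGens[p.2]? with
      | none => exact ⟨1, one_mem _, code_one, by rw [inv_one]; exact code_one⟩
      | some q => exact conjGens_rep q (List.mem_of_getElem? e)
    refine ⟨⟨c, hc⟩ * g * ⟨c, hc⟩⁻¹, ?_, hzg.trans (isConj_iff.2 ⟨_, rfl⟩)⟩
    rw [ha, Subgroup.coe_mul, Subgroup.coe_mul, Subgroup.coe_inv, code_mul, code_mul, hg, hc1, hc2]

theorem exists_center :
    ∃ z : Cfsg.Spor.M22, code z.1 = certM22.z := by
  obtain ⟨g, hg⟩ := allK_spec.exists_code certM22.z (show certM22.z ∈ allK by simpa using z_mem_allK)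
  have hm : g ∈ K := (allK_spec.mem_iff g).2 (show code g ∈ allK by rw [hg]; simpa using z_mem_allK)
  exact ⟨⟨g, grp_le hm⟩, hg⟩

theorem isConj_center (z : Cfsg.Spor.M22) (hz : code z.1 = certM22.z) {x : Cfsg.Spor.M22}
    (hx : x.1 ∈ K) (h2 : x * x = 1) (h1 : x ≠ 1) : IsConj z x := by
  have hm := (allK_spec.mem_iff x.1).1 hx
  have h := List.all_eq_true.1 invList_ok _ hm
  have hsq : cmpC (code x.1) (code x.1) = idC := by
    rw [← code_mul, ← code_one]; exact congrArg code (congrArg Subtype.val h2)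
  have hne : code x.1 ≠ idC := fun e => h1 (Subtype.ext (code_injective (e.trans code_one.symm)))
  simp only [hsq, beq_self_eq_true, Bool.not_true, Bool.or_false, Bool.or_eq_true, beq_iff_eq,
    hne, false_or, List.contains_eq_mem, decide_eq_true_eq] at h
  obtain ⟨g, hg, hzg⟩ := invList_conj z hz _ h
  rwa [show g = x from Subtype.ext (code_injective hg)] at hzg

/-- A group of order 898128000 containing `M22` has one class of involutions. -/
theorem isConj_involutions {G : Type*} [Group G] [Finite G] (ψ : Cfsg.Spor.M22 →* G)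
    (hinj : Function.Injective ψ) (hcard : Nat.card G = 898128000) {x y : G}
    (hx : orderOf x = 2) (hy : orderOf y = 2) : IsConj x y := by
  have : Fact (Nat.Prime 2) := ⟨Nat.prime_two⟩
  obtain ⟨z, hz⟩ := exists_center
  let S' : Subgroup G := (Subgroup.subgroupOf K Cfsg.Spor.M22).map ψ
  let e : K ≃* S' := (Subgroup.subgroupOfEquivOfLe grp_le).symm.trans
    (Subgroup.equivMapOfInjective _ ψ hinj)
  have hK : Nat.card S' = 2 ^ 7 := by
    rw [← Nat.card_congr e.toEquiv, allK_spec.card]
    rfl
  let S₀ : Sylow 2 G := Sylow.ofCard S' (by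
    rw [hK, hcard, show (898128000 : ℕ) = 2 ^ 7 * 7016625 by norm_num,
      Nat.factorization_mul (by norm_num) (by norm_num)]
    simp only [Finsupp.coe_add, Pi.add_apply, Nat.prime_two.factorization_pow,
      Finsupp.single_eq_same,
      Nat.factorization_eq_zero_of_not_dvd (show ¬ 2 ∣ 7016625 by norm_num), add_zero])
  suffices h : ∀ u : G, orderOf u = 2 → IsConj (ψ z) u from (h x hx).symm.trans (h y hy)
  intro u hu
  obtain ⟨P, hP⟩ := (IsPGroup.of_card (G := Subgroup.zpowers u) (n := 1)
    (by rw [Nat.card_zpowers, hu, pow_one]) : IsPGroup 2 _).exists_le_sylow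
  obtain ⟨g, hg⟩ := MulAction.exists_smul_eq G P S₀
  have hmem : g * u * g⁻¹ ∈ (S₀ : Subgroup G) := by
    rw [← hg]
    exact Subgroup.mem_map_of_mem _ (hP (Subgroup.mem_zpowers u))
  obtain ⟨m, hm, hmu⟩ := hmem
  have hord : orderOf m = 2 := by
    rw [← orderOf_injective ψ hinj, hmu, show g * u * g⁻¹ = MulAut.conj g u from rfl, MulEquiv.orderOf_eq, hu]
  have h := isConj_center z hz (x := m) hm
    (by rw [← sq, ← hord, pow_orderOf_eq_one])
    fun e1 => by rw [e1, orderOf_one] at hord; norm_num at hord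
  refine IsConj.trans ((MonoidHom.map_isConj ψ h)) ?_
  rw [hmu]
  exact (isConj_iff.2 ⟨g, rfl⟩ : IsConj u _).symm

end CfsgLib.McLInv
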